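import Cfsg.Agent.Cl.SU3
import Cfsg.Agent.Polar.URep

set_option autoImplicit false

/-! The Schur multipliers of the unitary groups. -/

namespace Cfsg.Agent.Cl

open Subgroup Module Cfsg.Agent.RG Cfsg.Agent.RGD Cfsg.Agent.Cover Cfsg.Agent.Polar
open Cfsg.Agent.Polar.PQ Cfsg.Agent.Forms
open scoped commutatorElement

universe u

variable {F : Type*} [Field F] {V : Type u} [AddCommGroup V] [Module F V]

section general

variable {τ : F →+* F} {π : FP F τ} {P : PQ π V} {E : Type*} [Group E] {θ : E →* P.Iso}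
variable (c : CE θ) {e f : V}
include c

theorem CE.c1_mu {g : P.Iso} {t s : F} (k : Sc P e f g t s) (ht : t * τ t = 1) (hs : τ t * s ≠ 1)
    (np : NP P (P.perp {e, f})) (h4 : ∀ l ∈ π.Λ, ∃ a, l = a - π.ε * τ a) :
    P.U e ≤ Cz θ (UW P e ⊥) := by
  have he := k.hyp.left
  have p := fun {x} (hx : x ∈ P.perp {e, f}) => EOk.of_perp he (mem_perp_pair.1 hx).1
  have k1 : ∀ x a, ∀ s ∈ UW P e ⊥, Commute s (P.eich e x a) := fun x a =>
    commute_UW he (eich_mem_U _ _ _).1 (by simp)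
  refine k.hyp.U_le_of_vecs (fun l hl => ?_) fun x hx => ?_
  · obtain ⟨b, rfl⟩ := h4 l hl
    obtain ⟨y, hy, z, hz, rfl⟩ := np.exists_eq b
    rw [← P.symm, ← eich_comm (p hz) (p hy)]
    exact comm_mem_Cz c.ker (c.ran (eich_mem_EG _ _ _)) (c.ran (eich_mem_EG _ _ _)) (k1 _ _) (k1 _ _)
  · have h5 := Submodule.smul_mem _ (τ t * s - 1)⁻¹ hx
    obtain ⟨b, o1, e1⟩ := k.comm h5 (p h5)
    rw [smul_inv_smul₀ (sub_ne_zero.2 hs)] at o1 e1
    refine ⟨_, o1, e1 ▸ comm_mem_Cz c.ker (c.ran k.mem) (c.ran (eich_mem_EG _ _ _)) (fun z hz => ?_)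
      (k1 _ _)⟩
    obtain ⟨l, hl, rfl⟩ := (mem_Z he).1 hz
    have := k.conj (zero_mem _) (EOk.lam he hl)
    rw [smul_zero, ht, one_mul, mul_inv_eq_iff_eq_mul] at this
    exact this.symm

theorem CE.comm_le_ZS (h : P.Hyp e f) (c1 : P.U e ≤ Cz θ (UW P e ⊥)) {y : V}
    (hy : P.perp {e, f} = F ∙ y) {r : F} (h0 : r ≠ 0) (h1 : 1 + r + r⁻¹ ≠ 0)
    (h2 : ∀ k ∈ [r, 1 + r], ∃ g t s, Sc P e f g t s ∧ τ t * s = k) :
    ⁅(P.U e).comap θ, (P.U e).comap θ⁆ ≤ ZS θ e := by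
  have hy' : ∀ a : F, a • y ∈ P.perp {e, f} := fun a => hy ▸ Submodule.mem_span_singleton.2 ⟨a, rfl⟩
  have p := fun a => (mem_perp_pair.1 (hy' a)).1
  refine c.comm_le c1 h fun x hx z hz => ?_
  obtain ⟨a, rfl⟩ := Submodule.mem_span_singleton.1 (hy ▸ hx)
  obtain ⟨b, rfl⟩ := Submodule.mem_span_singleton.1 (hy ▸ hz)
  have hf : ∀ a b : F, c.g e (a • y) (b • y) ∈ (UW P e ⊥).comap θ := fun a b =>
    c.g_mem h.left (p a) (p b)
  have hX := (UW_le_U h.left ⊥).trans c1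
  haveI : ((ZS θ e).subgroupOf ((UW P e ⊥).comap θ)).Normal := ⟨fun n hn g => by
    rwa [mem_subgroupOf, coe_mul, coe_mul, (Cz_commute c.ker (hX g.2) n.2).eq, coe_inv,
      mul_inv_cancel_right]⟩
  refine mem_subgroupOf.1 ((QuotientGroup.eq_one_iff (N := (ZS θ e).subgroupOf _) ⟨_, hf a b⟩).1
    (biadd_eq_one (oFP F) (φ := fun a b => QuotientGroup.mk
      (s := (ZS θ e).subgroupOf ((UW P e ⊥).comap θ)) ⟨_, hf a b⟩)
      (fun a a' b => ?_) (fun a b b' => ?_) h0 h1 (fun s hs a b => ?_) a b))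
  · rw [← QuotientGroup.mk_mul]; congr 2; rw [add_smul, c.g_addL c1 h.left (p _) (p _) (p _)]
  · rw [← QuotientGroup.mk_mul]; congr 2; rw [add_smul, c.g_addR c1 h.left (p _) (p _) (p _)]
  obtain ⟨g, t, s, k, rfl⟩ := h2 s hs
  have := commutator_mem_commutator (c.sc_mem k) (hf a b)
  rw [commutatorElement_def, c.g_conj c1 h.left k.ne (by rw [c.θ_L k.mem, k.he]) (p a) (p b),
    c.θ_L k.mem, k.hW _ (hy' a), k.hW _ (hy' b), smul_smul, smul_smul, smul_smul, smul_smul] at this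
  rw [eq_comm, QuotientGroup.eq, mem_subgroupOf, coe_mul, coe_inv,
    (Cz_commute c.ker (hX (inv_mem (hf a b))) (hf _ _)).eq]
  exact this

end general

variable [Fintype F] {q : ℕ} {hF : Fintype.card F = q ^ 2} {P : PQ (uFP hF) V}

local notation "τ" => frobq hF

theorem u_lin : Lin (uFP hF) := fun _ h _ hl => u_lam_mul hl h

theorem u_gen1 : ∀ l ∈ (uFP hF).Λ, ∃ a, l = a - (uFP hF).ε * τ a := fun l hl => by
  obtain ⟨θ, h⟩ := exists_trace_one hF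
  exact ⟨θ * l, by rw [map_mul, tau_lam hl, uFP_eps]; linear_combination -l * h⟩

theorem u_tr : ∀ s, s = (uFP hF).ε * τ s → ∃ a, s = a + (uFP hF).ε * τ a := fun s hs => by
  obtain ⟨θ, h⟩ := exists_trace_one hF
  rw [uFP_eps, one_mul] at hs
  exact ⟨θ * s, by rw [map_mul, ← hs, uFP_eps]; linear_combination -s * h⟩

theorem exists_span {W : Submodule F V} (hW : NDS P W) (h : finrank F W = 1) :
    ∃ y, W = F ∙ y ∧ P.B y y ≠ 0 := by
  obtain ⟨y, hy, h0⟩ := Submodule.exists_mem_ne_zero_of_ne_bot (p := W) (by rintro rfl; simp at h)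
  haveI := Module.finite_of_finrank_eq_succ h
  have h1 : W = F ∙ y := (Submodule.eq_of_le_of_finrank_eq ((Submodule.span_singleton_le_iff_mem _ _).2 hy)
    (by rw [finrank_span_singleton h0, h])).symm
  obtain ⟨z, hz, h2⟩ := hW y hy h0
  obtain ⟨a, rfl⟩ := Submodule.mem_span_singleton.1 (h1 ▸ hz)
  exact ⟨y, h1, fun e => h2 (by simp [e])⟩

theorem exists_Tr {e f y : V} (h : P.Hyp e f) (hy : y ∈ P.perp {e, f}) (h0 : P.B y y ≠ 0) {t : F}
    (ht : t ≠ 0) : ∃ g ∈ P.EG, g • e = t • e ∧ g • f = (τ t)⁻¹ • f ∧ g • y = (τ t / t) • y ∧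
      ∀ z ∈ P.perp {e, f}, P.B z y = 0 → g • z = z := by
  have hv : ∀ c, c ≠ 0 → ∃ a, Val τ (P.B y y) a c := fun c hc => by
    obtain ⟨a, ha⟩ := exists_norm_eq hF ((c + τ c) / P.B y y)
      (by rw [map_div₀, map_add, frobq_frobq, u_fix_B_self, add_comm])
    exact ⟨a, hc, by rw [ha, div_mul_cancel₀ _ h0]⟩
  obtain ⟨a, k⟩ := hv t ht
  obtain ⟨a', k'⟩ := hv 1 one_ne_zero
  obtain ⟨h1, t', -, h2, h3⟩ := ws3_mul (idSys P) h hy k k'
  rw [map_one, div_one] at h1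
  obtain rfl := smul_left_injective F h.left_ne_zero (h1.symm.trans h2)
  exact ⟨_, by rw [map_mul, USys.θ_ws _ h, USys.θ_ws _ h]; exact mul_mem (ws_mem _ _ _ _) (ws_mem _ _ _ _), h2, h3⟩

theorem exists_mu {d : ℕ} (h0 : 0 < d) (h : d * (q - 1) + 1 < q ^ 2) :
    ∃ t : F, t ≠ 0 ∧ τ t = t⁻¹ ∧ t ^ d ≠ 1 := by
  have := two_le_q hF
  obtain ⟨t, h1, h2⟩ := exists_pow_ne_one (K := F) (s := Finset.univ) (d := d * (q - 1))
    (Nat.mul_pos h0 (by omega)) (by rwa [Finset.card_univ, hF])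
  refine ⟨τ t / t, by simp [h1], by simp [frobq_frobq], ?_⟩
  rwa [frobq_apply, ← pow_sub_one_mul (by omega : q ≠ 0), mul_div_cancel_right₀ _ h1, ← pow_mul,
    mul_comm]

theorem card_Fix : Nat.card (Fix τ) = q := card_fix hF

theorem exists_fix_pow {d : ℕ} (h0 : 0 < d) (h : d + 1 < q) : ∃ t : F, t ≠ 0 ∧ τ t = t ∧ t ^ d ≠ 1 := by
  classical
  obtain ⟨t, h1, h2⟩ := exists_pow_ne_one (K := Fix τ) (s := Finset.univ) h0
    (by rwa [Finset.card_univ, Fintype.card_eq_nat_card, card_Fix])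
  exact ⟨t, by simpa using h1, t.2, fun e => h2 (Subtype.ext e)⟩

theorem u_ker [FiniteDimensional F V] {m : ℕ} (Φ : Frame P m true) {S : Type*} [Group S]
    (σ : USys P S) : US (Φ.X σ) Set.univ ⊓ σ.θ.ker = ⊥ := by
  obtain ⟨l, hl, h0⟩ := u_exists_lam hF
  by_cases h : Φ.V0 = ⊥
  · exact Φ.ker_lam u_lin hl h0 h σ
  have h1 : ∀ x ∈ Φ.V0, x ≠ 0 → P.B x x ≠ 0 := fun x hx h0 e => h0 (Φ.aniso x hx (u_sing_iff.2 e))
  obtain ⟨y, h2, h3⟩ := exists_span (P := P) (W := Φ.V0) (fun x hx h0 => ⟨x, hx, h1 x hx h0⟩) (by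
    have := Submodule.finrank_eq_zero.not.2 h
    by_contra h2
    obtain ⟨z, hz, h3, h4⟩ := u_iso (P := P) Φ.V0 (by omega)
    exact h3 (Φ.aniso z hz h4))
  have hy := Φ.V0_le (Frame.lst m) (h2 ▸ Submodule.mem_span_singleton_self y)
  refine Φ.ker_eq_bot σ (inf_ker_mono ((closure_le _).2 ?_) (HS3_ker σ (Φ.hyp _) hy h3))
  have : ∀ n, (bRC (hmT m)).IsM (Φ.X σ) (Fin.last m) n → n ∈ WS σ (Φ.v (Frame.lst m)) (Φ.d _) y :=
    fun n hn => by
      obtain ⟨x, hx, c, h4, h5, rfl⟩ := Φ.isM_iff_short σ _ Frame.sa_last hn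
      obtain ⟨a, rfl⟩ := Submodule.mem_span_singleton.1 (h2 ▸ hx)
      exact ⟨a, c, ⟨h4, by rw [u_QEq_iff.1 h5, B_smul_left, B_smul_right, mul_assoc]⟩, rfl⟩
  rintro _ ⟨n, n', k, k', rfl⟩
  exact subset_closure ⟨n, this n k, _, this _ k'.inv, rfl⟩

variable [FiniteDimensional F V] (hP : P.ND) {E : Type*} [Group E] {θ : E →* P.Iso} (c : CE θ)
include hP c

theorem su3_sm (h3 : finrank F V = 3) (hq : 3 ≤ q) : Sm θ := by
  have key : ∀ {e f}, P.Hyp e f → ∃ y, P.perp {e, f} = F ∙ y ∧ NP P (P.perp {e, f}) ∧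
      ∀ t, t ≠ 0 → ∃ g, Sc P e f g t (τ t / t) := fun {e f} h => by
    have := h.finrank_perp
    obtain ⟨y, h1, h2⟩ := exists_span (nds_perp hP h) (by omega)
    have hy : y ∈ P.perp {e, f} := h1 ▸ Submodule.mem_span_singleton_self y
    refine ⟨y, h1, ⟨y, hy, y, hy, h2⟩, fun t ht => ?_⟩
    obtain ⟨g, hg, h4, -, h5, -⟩ := exists_Tr h hy h2 ht
    refine ⟨g, h, hg, ht, h4, fun x hx => ?_⟩
    obtain ⟨a, rfl⟩ := Submodule.mem_span_singleton.1 (h1 ▸ hx)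
    rw [act_smul, h5, smul_comm]
  obtain ⟨t, h1, h2, h4⟩ := exists_mu (hF := hF) three_pos (by
    obtain ⟨k, rfl⟩ := Nat.exists_eq_add_of_le' hq
    simp only [Nat.add_succ_sub_one]; nlinarith)
  have h5 : τ t * (τ t / t) ≠ 1 := fun e => h4 (by
    rw [h2] at e; field_simp at e; exact e.symm)
  have c1 : ∀ {e f}, P.Hyp e f → P.U e ≤ Cz θ (UW P e ⊥) := fun h => by
    obtain ⟨y, -, np, k⟩ := key h
    obtain ⟨g, k⟩ := k t h1
    exact c.c1_mu k (by rw [h2, mul_inv_cancel₀ h1]) h5 np u_gen1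
  refine ⟨c, c1, fun h => ?_, fun h => ?_⟩
  · obtain ⟨y, hy, -, k⟩ := key h
    obtain ⟨a, h6, h7, h8⟩ := exists_fix_pow (hF := hF) one_pos hq
    obtain ⟨s, rfl⟩ := exists_norm_eq hF a h7
    obtain ⟨g, k1⟩ := k s (left_ne_zero_of_mul h6)
    obtain ⟨r, r1, r2, r3, r4⟩ : ∃ r : F, r ≠ 0 ∧ 1 + r ≠ 0 ∧ 1 + r + r⁻¹ ≠ 0 ∧
        ∀ k ∈ [r, 1 + r], ∃ t, (k ≠ 0 → t ≠ 0) ∧ (k ≠ 0 → τ t * (τ t / t) = k) := by
      by_cases h9 : 4 < q
      · classical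
        obtain ⟨r, r1, r2, r3⟩ := exists_steinberg_scalar (K := Fix τ) (s := Finset.univ)
          (by rwa [Finset.card_univ, Fintype.card_eq_nat_card, card_Fix])
        refine ⟨r, by simpa using r1, by exact_mod_cast r2, by exact_mod_cast r3, fun k hk =>
          ⟨k, id, fun k0 => ?_⟩⟩
        have : τ k = k := by
          simp only [List.mem_cons, List.not_mem_nil, or_false] at hk
          rcases hk with rfl | rfl <;> simp [fix_tau]
        rw [this, div_self k0, mul_one]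
      obtain ⟨r, r1, r2, r3⟩ := exists_steinberg_scalar (K := F) (s := Finset.univ)
        (by rw [Finset.card_univ, hF]; nlinarith)
      refine ⟨r, r1, r2, r3, fun z _ => ?_⟩
      have := FiniteField.pow_card z
      rw [hF] at this
      obtain rfl | rfl : q = 3 ∨ q = 4 := by omega
      · refine ⟨z ^ 5, pow_ne_zero _, fun k0 => ?_⟩
        rw [frobq_apply, mul_div_assoc', div_eq_iff (pow_ne_zero _ k0)]
        linear_combination (z ^ 16 + z ^ 8 + 1) * z ^ 5 * this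
      · refine ⟨z ^ 13, pow_ne_zero _, fun k0 => ?_⟩
        rw [frobq_apply, mul_div_assoc', div_eq_iff (pow_ne_zero _ k0)]
        linear_combination (z ^ 75 + z ^ 60 + z ^ 45 + z ^ 30 + z ^ 15 + 1) * z ^ 13 * this
    refine ⟨_, c.dd_ZS k1 (c1 h) u_lin (by rwa [pow_one] at h8)
      (c.comm_le_ZS h (c1 h) hy r1 r3 fun a ha => ?_)⟩
    have : a ≠ 0 := by
      simp only [List.mem_cons, List.not_mem_nil, or_false] at ha
      rcases ha with rfl | rfl <;> assumption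
    obtain ⟨t, h9, h10⟩ := r4 a ha
    obtain ⟨g, k2⟩ := k t (h9 this)
    exact ⟨g, t, _, k2, h10 this⟩
  · obtain ⟨y, -, -, k⟩ := key h
    obtain ⟨g, k⟩ := k t h1
    exact ⟨g, _, _, k, h5⟩

theorem su5_sm (h5 : finrank F V = 5) : Sm θ := by
  obtain ⟨l, hl, h0⟩ := u_exists_lam hF
  have hq := two_le_q hF
  have ex2 : ∀ {e e'}, P.Hyp e e' → ∃ v v', Hyp2 P e e' v v' := exists_hyp2 hP u_iso (by omega)
  have key : ∀ {e f v v'} (k : Hyp2 P e f v v'), ∃ y, k.W = F ∙ y ∧ P.B y y ≠ 0 := fun k =>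
    exists_span (k.nds hP) (by have := k.finrank_W; omega)
  have c1 : ∀ {e f}, P.Hyp e f → P.U e ≤ Cz θ (UW P e ⊥) := fun h => by
    obtain ⟨v, v', k⟩ := ex2 h
    exact c.c1_of k ⟨⟨l, hl, h0⟩, Or.inl u_gen1⟩
  have np : ∀ {e f v v'} (k : Hyp2 P e f v v'), NP P k.W := fun k =>
    (k.nds hP).np' (by have := k.finrank_W; omega)
  have c2 : ∀ {e f v v'} (k : Hyp2 P e f v v'), UW P v k.W ≤ Cz θ (UW P e ⊥) := fun k => by
    obtain ⟨y, h1, h2⟩ := key k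
    have hy : y ∈ k.W := h1 ▸ Submodule.mem_span_singleton_self y
    obtain ⟨t, t1, t2, t3⟩ := exists_mu (hF := hF) two_pos (by
      obtain ⟨k, rfl⟩ := Nat.exists_eq_add_of_le' hq
      simp only [Nat.add_succ_sub_one]; nlinarith)
    obtain ⟨g, hg, h3, -, h4, h6⟩ := exists_Tr k.h1 hy.1 h2 t1
    refine c.c2_mu k hg (by rw [t2, mul_inv_cancel₀ t1]) h3 (h6 _ (mem_perp_pair.2 ⟨k.we, k.we'⟩)
      (B_swap_zero (mem_perp_pair.1 hy.2).1)) (s := τ t / t) (fun e => t3 ?_) (fun x hx => ?_)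
      (np k) u_gen1
    · rw [t2] at e; field_simp at e; exact e.symm
    · obtain ⟨a, rfl⟩ := Submodule.mem_span_singleton.1 (h1 ▸ hx)
      rw [act_smul, h4, smul_comm]
  refine ⟨c, c1, fun h => ?_, fun {e f} h => ?_⟩
  · obtain ⟨v, v', k⟩ := ex2 h
    exact ⟨_, c.dd_bal (c1 h) h (c.invForm2 (c1 h) k ⟨l, hl, h0⟩ (c2 k) (k.W_swap ▸ c2 k.swapR))
      ⟨l, hl, h0⟩ (Or.inr (np k)) u_gen1 u_tr⟩
  by_cases h3 : 3 ≤ q
  · obtain ⟨a, h6, h7, h8⟩ := exists_fix_pow (hF := hF) one_pos h3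
    obtain ⟨h9, g, s⟩ := sc_lam h (u_lam_mul hl h7) (mul_ne_zero h6 h0) hl h0
    exact ⟨g, _, _, s, by simpa [h0, h7] using h8⟩
  obtain rfl : q = 2 := by omega
  obtain ⟨v, v', k⟩ := ex2 h
  obtain ⟨y, h1, h2⟩ := key k
  have hy : y ∈ k.W := h1 ▸ Submodule.mem_span_singleton_self y
  obtain ⟨t, t1, t2, t3⟩ := exists_mu (hF := hF) one_pos (by norm_num)
  obtain ⟨g, hg, h3, h4, h6, h7⟩ := exists_Tr k.h2 hy.2 h2 t1
  have t4 : frobq hF t / t = t := by rw [frobq_apply, sq, mul_div_cancel_right₀ _ t1]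
  refine ⟨g, 1, t, ⟨h, hg, one_ne_zero, ?_, fun x hx => ?_⟩, by simpa using t3⟩
  · rw [h7 e (mem_perp_pair.2 ⟨k.symm.we, k.symm.we'⟩) (B_swap_zero (mem_perp_pair.1 hy.1).1), one_smul]
  · obtain ⟨a, ha⟩ := Submodule.mem_span_singleton.1 (h1.le <| hproj_mem k.h2
      (mem_perp_pair.2 ⟨k.we, k.we'⟩) (mem_perp_pair.2 ⟨k.w'e, k.w'e'⟩) hx)
    rw [t4] at h6
    rw [P.hyp_decomp v v' x, ← ha]
    simp only [smul_add, act_smul, h3, h4, h6, t2, inv_inv, smul_comm t]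

omit c in
theorem su_lifts (h3 : 3 ≤ finrank F V) (h : finrank F V = 3 ∨ finrank F V = 6 → 3 ≤ q)
    (h4 : finrank F V = 4 → 4 ≤ q) : Lifts.{u} P := fun E _ θ c => by
  obtain ⟨l, hl, h0⟩ := u_exists_lam hF
  have hq := two_le_q hF
  by_cases h5 : finrank F V = 3
  · exact (su3_sm hP c h5 (h (Or.inl h5))).lifts
  by_cases h5 : finrank F V = 5
  · exact (su5_sm hP c h5).lifts
  have ex2 : ∀ {e e'}, P.Hyp e e' → ∃ v v', Hyp2 P e e' v v' := exists_hyp2 hP u_iso (by omega)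
  by_cases h5 : finrank F V = 4
  · obtain ⟨a, h6, h7, h8⟩ := exists_fix_pow (hF := hF) two_pos (h4 h5)
    exact (c.sm_torus u_lin (Or.inl u_gen1) ex2 (u_lam_mul hl h7) (mul_ne_zero h6 h0) hl h0
      (by rwa [mul_div_cancel_right₀ _ h0])).lifts
  obtain ⟨t, t1, t2⟩ := exists_pow_ne_one (K := F) (s := Finset.univ) two_pos
    (by rw [Finset.card_univ, hF]; nlinarith)
  refine Big.lifts ⟨c, hP, ex2, exists_hyp3 hP u_iso (by omega),
    fun _ => Or.inl ⟨⟨l, hl, h0⟩, Or.inl u_gen1⟩, fun k => c.c2_torus k t1 t2, fun k => Or.inr ?_⟩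
  by_cases h6 : finrank F V = 6
  · have := h (Or.inr h6)
    obtain ⟨r, r1, r2, r3⟩ := exists_steinberg_scalar (K := F) (s := Finset.univ)
      (by rw [Finset.card_univ, hF]; nlinarith)
    exact Or.inr ⟨r, t, r1, r2, r3, t1, t2⟩
  · exact Or.inl ((k.nds hP).np' (by have := k.finrank_W; omega))

omit c in
theorem su_mult (h3 : 3 ≤ finrank F V) (h : finrank F V = 3 ∨ finrank F V = 6 → 3 ≤ q)
    (h4 : finrank F V = 4 → 4 ≤ q) :
    HasCyclicSchurMultiplier (P.EG ⧸ center P.EG) (Nat.gcd (finrank F V) (q + 1)) := by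
  haveI := Module.finite_of_finite F (M := V)
  obtain ⟨l, hl, hl0⟩ := u_exists_lam hF
  obtain ⟨e, -, h0, he⟩ := u_iso (P := P) ⊤ (by simp; omega)
  obtain ⟨f, hf⟩ := hP.exists_hyp he h0
  obtain ⟨m, ⟨Φ⟩⟩ := exists_frame_lam hP he h0 hl hl0
  obtain ⟨h1, h2⟩ := Φ.closed hP (su_lifts hP h3 h h4) fun S _ σ => u_ker Φ σ
  have h5 : ∀ μ : Fˣ, μ ∈ rootsOfUnity (Nat.gcd (finrank F V) (q + 1)) F ↔
      (μ : F) ^ finrank F V = 1 ∧ (μ : F) * τ μ = 1 := fun μ => by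
    rw [mem_rootsOfUnity', pow_gcd_eq_one, frobq_apply, pow_succ']
  have h6 : Nat.gcd (Nat.gcd (finrank F V) (q + 1)) (Fintype.card F - 1) =
      Nat.gcd (finrank F V) (q + 1) := Nat.gcd_eq_left ((Nat.gcd_dvd_right _ _).trans (by
    rw [hF]; exact ⟨q - 1, by simpa using Nat.sq_sub_sq q 1⟩))
  refine mult_quot_center h1 h2 ((centerEquiv hP u_rich hf _ (fun μ k => ((h5 μ).1 k).2)
    fun μ hμ => ?_).symm.trans (h6 ▸ rootsEquiv F (Nat.gcd (finrank F V) (q + 1)) :))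
  rw [h5, u_EG_eq_ker_det hP, MonoidHom.mem_ker, Units.ext_iff, coe_det, and_iff_left hμ,
    show ((P.scal μ hμ : V ≃ₗ[F] V) : V →ₗ[F] V) = (μ : F) • LinearMap.id from rfl,
    LinearMap.det_smul, LinearMap.det_id, mul_one, Units.val_one]

end Cfsg.Agent.Cl
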