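import Mathlib

set_option autoImplicit false

/-! Functional equations arising from the rank one unitary group. -/

namespace Cfsg.Agent.Cl

theorem eq_top_of_cube {A : Type*} [CommGroup A] [IsCyclic A] {D : Subgroup A} (h3 : ∀ t, t ^ 3 ∈ D)
    {s : A} (hs : s ∈ D) (hs' : ∀ t, s ≠ t ^ 3) : D = ⊤ := by
  obtain ⟨g, hg⟩ := IsCyclic.exists_generator (α := A)
  suffices g ∈ D from eq_top_iff.2 fun x _ => (Subgroup.zpowers_le.2 this) (hg x)
  obtain ⟨k, rfl⟩ := hg s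
  have h1 := D.mul_mem hs (D.inv_mem (h3 (g ^ (k / 3))))
  rw [← zpow_natCast, ← zpow_mul, ← zpow_sub] at h1
  have : k % 3 = 0 ∨ k % 3 = 1 ∨ k % 3 = 2 := by omega
  rcases this with h | h | h
  · exact absurd (by rw [← zpow_natCast, ← zpow_mul]; congr 1; omega) (hs' (g ^ (k / 3)))
  · rwa [show k - k / 3 * (3 : ℕ) = 1 by omega, zpow_one] at h1
  · rw [show k - k / 3 * (3 : ℕ) = 2 by omega] at h1
    simpa [pow_succ, zpow_ofNat] using D.mul_mem (h3 g) (D.inv_mem h1)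

variable {F : Type*} [Field F] {Q : Type*} [CommGroup Q]

/-- admissible parameters -/
def Val (τ : F →+* F) (δ a c : F) : Prop := c ≠ 0 ∧ c + τ c = a * τ a * δ

/-- the functional equations -/
structure U3Fun (τ : F →+* F) (δ l₀ : F) (φ : F → F → Q) : Prop where
  tt : ∀ a, τ (τ a) = a
  nrm : ∀ a, τ a = a → ∃ c, c * τ c = a
  δ_ne : δ ≠ 0
  δ_fix : τ δ = δ
  l_ne : l₀ ≠ 0
  l_tau : τ l₀ = -l₀
  r1 : ∀ t, t ≠ 0 → ∀ a c, Val τ δ a c → φ (τ t ^ 2 / t * a) (t * τ t * c) = φ a c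
  r2 : ∀ a c, Val τ δ a c → φ (τ c / c * a) c = φ a c
  r3 : ∀ a c, Val τ δ a c → ∀ l, τ l = -l → l ≠ 0 → c + l ≠ 0 →
    φ a (c + l) = φ (-(τ c / c) * a) (τ c * (c + l) / l) * φ a c * φ 0 l
  r4 : ∀ a c, Val τ δ a c → φ (-a) (τ c) = (φ a c)⁻¹

variable {τ : F →+* F} {δ l₀ : F} {φ : F → F → Q}

theorem Val.smul {a c s : F} (h : Val τ δ a c) (hs : s * τ s = 1) : Val τ δ (s * a) c :=
  ⟨h.1, by rw [h.2, map_mul]; linear_combination (-a * τ a * δ) * hs⟩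

variable (τ) in
/-- the elements of norm one -/
def Mu : Subgroup Fˣ := (MonoidHom.id Fˣ * Units.map (τ : F →* F)).ker

theorem mem_Mu {s : Fˣ} : s ∈ Mu τ ↔ (s : F) * τ s = 1 := by
  simp [Mu, MonoidHom.mem_ker, Units.ext_iff]

variable (τ δ φ) in
/-- the scalars leaving the function invariant -/
def Fx (c : F) : Subgroup (Mu τ) where
  carrier := {s | ∀ a, Val τ δ a c → φ (s.1 * a) c = φ a c}
  one_mem' := by simp
  mul_mem' {s t} hs ht a ha := by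
    rw [Subgroup.coe_mul, Units.val_mul, mul_assoc, hs _ (ha.smul (mem_Mu.1 t.2)), ht _ ha]
  inv_mem' {s} hs a ha := by rw [← hs _ (ha.smul (mem_Mu.1 s⁻¹.2))]; simp

namespace U3Fun

variable (h : U3Fun τ δ l₀ φ)
include h

theorem exists_val {c : F} (hc : c ≠ 0) : ∃ a, Val τ δ a c := by
  obtain ⟨a, ha⟩ := h.nrm ((c + τ c) / δ) (by rw [map_div₀, map_add, h.tt, h.δ_fix, add_comm])
  exact ⟨a, hc, by rw [ha, div_mul_cancel₀ _ h.δ_ne]⟩

theorem cube_mem (c : F) (t : Mu τ) : t ^ 3 ∈ Fx τ δ φ c := fun a ha => by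
  have h1 := mem_Mu.1 t⁻¹.2
  have h2 := h.r1 _ t⁻¹.1.ne_zero a c ha
  rw [h1, one_mul, eq_inv_of_mul_eq_one_right h1] at h2
  rw [← h2]; simp [pow_succ]

/-- the ratio of an element and its conjugate -/
def rt {c : F} (hc : c ≠ 0) : Mu τ := ⟨Units.mk0 (τ c / c) (by simp [hc]), mem_Mu.2 (by
  have := (map_ne_zero τ).2 hc
  simp only [Units.val_mk0, map_div₀, h.tt]; field_simp)⟩

theorem top_of {c : F} (hc : c ≠ 0) [Finite F] (h1 : ∀ t, h.rt hc ≠ t ^ 3) : Fx τ δ φ c = ⊤ :=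
  eq_top_of_cube (h.cube_mem c) (fun a ha => h.r2 a c ha) h1

theorem val3 {a c l : F} (ha : Val τ δ a c) (hl : τ l = -l) (h0 : l ≠ 0) (h1 : c + l ≠ 0) :
    Val τ δ (-(τ c / c) * a) (τ c * (c + l) / l) := by
  have := ha.1
  have := (map_ne_zero τ).2 ha.1
  refine ⟨by simp [*], ?_⟩
  simp only [map_div₀, map_mul, map_add, map_neg, h.tt, hl]
  field_simp
  linear_combination l * ha.2

theorem top [Finite F] {c : F} (hc : c ≠ 0) : Fx τ δ φ c = ⊤ := by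
  by_contra h1
  obtain ⟨t, ht⟩ : ∃ t, h.rt hc = t ^ 3 := by by_contra h2; exact h1 (h.top_of hc (not_exists.1 h2))
  obtain ⟨ζ, hζ⟩ : ∃ ζ, ζ ∉ Fx τ δ φ c := by by_contra h2; push Not at h2; exact h1 (eq_top_iff.2 fun s _ => h2 s)
  have h3 : ∀ t, ζ ≠ t ^ 3 := fun t e => hζ (e ▸ h.cube_mem c t)
  let m : Mu τ := ⟨-1, mem_Mu.2 (by simp)⟩
  have h4 : (ζ.1 : F) + 1 ≠ 0 := fun e => h3 m (Subtype.ext (Units.ext (by
    simp [m]; linear_combination e)))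
  have h5 : c + τ c ≠ 0 := fun e => hζ fun a ha => by
    have : a = 0 := by simpa [e, h.δ_ne] using ha.2
    rw [this, mul_zero]
  have h6 := mem_Mu.1 ζ.2
  have h7 : τ ((c + τ c) / (ζ.1 + 1)) = ζ.1 * ((c + τ c) / (ζ.1 + 1)) := by
    have := (map_ne_zero τ).2 h4
    simp only [map_div₀, map_add, h.tt, map_one] at this ⊢
    field_simp; linear_combination (-(c + τ c)) * h6
  generalize hd : (c + τ c) / (ζ.1 + 1) = d at h7
  have h8 : d ≠ 0 := hd ▸ div_ne_zero h5 h4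
  have h9 : d + τ d = c + τ c := by rw [h7, ← hd]; field_simp; ring
  have e1 : h.rt h8 = ζ := Subtype.ext (Units.ext (by simp [rt, h7, h8]))
  have h10 : c - d ≠ 0 := fun e => h3 t (by rw [← ht, ← e1]; congr 1; linear_combination -e)
  have h11 : τ (c - d) = -(c - d) := by rw [map_sub]; linear_combination -h9
  have h12 : τ d * c / (c - d) ≠ 0 := by simp [*]
  have h13 := h.top_of h12 fun s e => h3 (m * t / s) (by
    rw [div_pow, mul_pow, ← e, ← ht, ← e1]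
    refine Subtype.ext (Units.ext ?_)
    have := (map_ne_zero τ).2 hc
    have := (map_ne_zero τ).2 h8
    simp [rt, m, h11, h.tt]; field_simp; ring)
  refine hζ fun a ha => ?_
  have k : ∀ a, Val τ δ a c → Val τ δ a d := fun a ha => ⟨h8, h9.trans ha.2⟩
  have k1 := fun a ha => h.r3 a d (k a ha) _ h11 h10 (by simpa)
  have k2 := h.val3 (k a ha) h11 h10 (by simpa)
  rw [add_sub_cancel] at k1 k2
  rw [k1 a ha, k1 _ (ha.smul h6), (h.top_of h8 (e1 ▸ h3)).ge (Subgroup.mem_top ζ) a (k a ha),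
    mul_left_comm, h13.ge (Subgroup.mem_top ζ) _ k2]

theorem eq [Finite F] {a a' c : F} (h1 : Val τ δ a c) (h2 : Val τ δ a' c) : φ a c = φ a' c := by
  have h3 := mul_right_cancel₀ h.δ_ne (h1.2.symm.trans h2.2)
  by_cases h0 : a' = 0
  · rw [h0, show a = 0 by simpa [h0] using h3]
  have h4 : a ≠ 0 := fun e => h0 (by simpa [e] using h3)
  have := (map_ne_zero τ).2 h0
  rw [← (h.top h1.1).ge (Subgroup.mem_top ⟨Units.mk0 (a / a') (div_ne_zero h4 h0), mem_Mu.2 (by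
    simp only [Units.val_mk0, map_div₀]; field_simp; exact h3)⟩) a' h2]
  simp [h0]

theorem exists_hom [Finite F] : ∃ ψ : F → Q, (∀ a b, a ≠ 0 → b ≠ 0 → ψ (a * b) = ψ a * ψ b) ∧
    ∃ ω, ∀ a c, Val τ δ a c → φ a c = ψ c * ω := by
  classical
  choose! v hv using fun c => h.exists_val (c := c)
  have e0 : ∀ a c, Val τ δ a c → φ a c = φ (v c) c := fun a c k => h.eq k (hv c k.1)
  have hl := h.l_ne
  have e1 : ∀ r c, τ r = r → r ≠ 0 → c ≠ 0 → φ (v (r * c)) (r * c) = φ (v c) c := fun r c h1 h2 h3 => by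
    obtain ⟨t, rfl⟩ := h.nrm r h1
    have h4 := left_ne_zero_of_mul h2
    have := (map_ne_zero τ).2 h4
    rw [← h.r1 t h4 _ c (hv c h3), e0 (_ * v c)]
    refine ⟨mul_ne_zero h2 h3, ?_⟩
    simp only [map_mul, map_div₀, map_pow, h.tt]
    field_simp; linear_combination (hv c h3).2
  have e2 : ∀ c, c ≠ 0 → φ (v (τ c)) (τ c) = (φ (v c) c)⁻¹ := fun c h1 => by
    rw [← h.r4 _ c (hv c h1), e0 (-v c)]
    exact ⟨(map_ne_zero τ).2 h1, by rw [h.tt, add_comm, (hv c h1).2]; simp⟩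
  let ψ : F → Q := fun a => φ (v (a * l₀)) (a * l₀) * φ (v l₀) l₀
  have e3 : φ (v l₀) l₀ * φ (v l₀) l₀ = 1 := by
    have := e2 l₀ hl
    rwa [h.l_tau, ← neg_one_mul, e1 _ _ (by simp) (by simp) hl, eq_inv_iff_mul_eq_one] at this
  have p1 : ∀ r a, τ r = r → r ≠ 0 → a ≠ 0 → ψ (r * a) = ψ a := fun r a h1 h2 h3 => by
    simp only [ψ]; rw [mul_assoc, e1 r _ h1 h2 (mul_ne_zero h3 hl)]
  have p2 : ∀ r, τ r = r → r ≠ 0 → ψ r = 1 := fun r h1 h2 => by
    simp only [ψ]; rw [e1 r _ h1 h2 hl, e3]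
  have p3 : ∀ a, a ≠ 0 → ψ (τ a) * ψ a = 1 := fun a h1 => by
    have := e2 (a * l₀) (mul_ne_zero h1 hl)
    rw [map_mul, h.l_tau, mul_neg, ← neg_one_mul, e1 _ _ (by simp) (by simp) (by simp [*])] at this
    simp only [ψ]; rw [this, mul_mul_mul_comm, e3]; simp
  have p4 : ∀ a r, τ r = r → r ≠ 0 → a ≠ 0 → a + r ≠ 0 → ψ (a + r) = ψ (τ a * (a + r)) * ψ a :=
    fun a r h1 h2 h3 h4 => by
    have h5 := hv _ (mul_ne_zero h3 hl)
    have h6 : τ (r * l₀) = -(r * l₀) := by rw [map_mul, h1, h.l_tau, mul_neg]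
    have h7 : a * l₀ + r * l₀ ≠ 0 := by rw [← add_mul]; exact mul_ne_zero h4 hl
    have h8 := h.r3 _ _ h5 _ h6 (mul_ne_zero h2 hl) h7
    rw [e0 _ _ (h.val3 h5 h6 (mul_ne_zero h2 hl) h7), e0 0 _ ⟨mul_ne_zero h2 hl, by simp [h6]⟩,
      e0 _ (_ + _) ⟨h7, by rw [map_add, h6, ← h5.2]; ring⟩, e1 r _ h1 h2 hl, ← add_mul,
      show τ (a * l₀) * ((a + r) * l₀) / (r * l₀) = -r⁻¹ * (τ a * (a + r) * l₀) by
        rw [map_mul, h.l_tau]; field_simp,
      e1 (-r⁻¹) _ (by simp [h1]) (by simp [h2]) (by simp [*])] at h8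
    simp only [ψ]; rw [h8, mul_assoc, e3, mul_mul_mul_comm, e3]
  have p5 : ∀ a b, a ≠ 0 → b ≠ 0 → ψ (a * b) = ψ a * ψ b := fun a b h1 h2 => by
    have h0 := (map_ne_zero τ).2 h1
    by_cases h3 : τ a = a
    · rw [p1 a b h3 h1 h2, p2 a h3 h1, one_mul]
    by_cases h4 : τ b = b
    · rw [mul_comm, p1 b a h4 h2 h1, p2 b h4 h2, mul_one]
    have h6 : ∀ s, τ s = s → s ≠ 0 → ψ (τ a * (s * (a * b))) = ψ b := fun s k k' => by
      rw [← p1 (s * (a * τ a)) b (by simp [k, h.tt, mul_comm]) (by simp [*]) h2]; congr 1; ring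
    by_cases h5 : τ (a * b) = a * b
    · rw [p2 _ h5 (mul_ne_zero h1 h2), ← h6 1 (by simp) one_ne_zero, one_mul, mul_comm (τ a),
        p1 _ _ h5 (mul_ne_zero h1 h2) h0, mul_comm, p3 a h1]
    have h7 := sub_ne_zero.2 h5
    have h8 := sub_ne_zero.2 h3
    obtain ⟨s, hs⟩ : ∃ s, s = (τ a - a) / (τ (a * b) - a * b) := ⟨_, rfl⟩
    have h9 : τ s = s := by rw [hs, map_div₀, map_sub, map_sub, h.tt, h.tt, ← neg_div_neg_eq]; simp
    have h10 : s ≠ 0 := hs ▸ div_ne_zero h8 h7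
    have := p4 a (s * (a * b) - a) (by
      rw [map_sub, map_mul, h9, hs]; field_simp; ring) (fun e => h4 (by
        have : b = s⁻¹ := by field_simp; exact mul_left_cancel₀ h1 (by linear_combination e)
        rw [this, map_inv₀, h9])) h1 (by simp [h1, h2, h10])
    rwa [add_sub_cancel, h6 s h9 h10, p1 s _ h9 h10 (mul_ne_zero h1 h2), mul_comm (ψ b)] at this
  refine ⟨ψ, p5, ψ l₀⁻¹ * φ (v l₀) l₀, fun a c k => ?_⟩
  rw [← mul_assoc, ← p5 _ _ k.1 (inv_ne_zero hl), e0 a c k]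
  simp only [ψ]; rw [inv_mul_cancel_right₀ hl, mul_assoc, e3, mul_one]

end U3Fun

end Cfsg.Agent.Cl
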