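import Cfsg.Agent.Cl.Sp
import Cfsg.Agent.Cl.U3Fun

set_option autoImplicit false

/-! The rank one unitary group. -/

namespace Cfsg.Agent.Cl

open Subgroup Module Cfsg.Agent.RGD Cfsg.Agent.Cover Cfsg.Agent.Polar Cfsg.Agent.Polar.PQ
open Cfsg.Agent.Forms
open scoped commutatorElement

theorem comm_closure_le {S : Type*} [Group S] {H : Subgroup S} {s : Set S} {n : S}
    (h1 : ∀ a ∈ s, a * n⁻¹ ∈ H) (h2 : ∀ a ∈ H, ∀ b ∈ H, Commute a b)
    (h3 : ∀ a ∈ H, n * a * n⁻¹ ∈ H) (h4 : ∀ a ∈ s, a⁻¹ ∈ s) {x : closure s}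
    (hx : x ∈ commutator (closure s)) : ∃ h ∈ H, x.1 = ⁅h, n⁆ := by
  have k : ∀ g ∈ H, ⁅g, n⁆ ∈ H := fun g hg => by
    simpa [commutatorElement_def, mul_assoc] using mul_mem hg (h3 _ (inv_mem hg))
  let M := commSub H H n k (comm_bot_of_commute h2)
  have h5 : ∀ g ∈ closure s, ∀ x ∈ M, g * x * g⁻¹ ∈ M := fun g hg => by
    induction hg using closure_induction'' with
    | one => simp
    | mem a ha =>
      rintro _ ⟨g, hg, rfl⟩
      refine ⟨_, h3 g hg, ?_⟩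
      have := (h2 _ (h1 a ha) _ (k _ (h3 g hg))).eq
      rw [← mul_inv_eq_iff_eq_mul] at this
      rw [← this]; simp only [commutatorElement_def]; group
    | inv_mem a ha =>
      rintro _ ⟨g, hg, rfl⟩
      refine ⟨_, h3 g hg, ?_⟩
      have := (h2 _ (h1 _ (h4 a ha)) _ (k _ (h3 g hg))).eq
      rw [← mul_inv_eq_iff_eq_mul] at this
      rw [← this]; simp only [commutatorElement_def]; group
    | mul a b _ _ ha hb => intro x hx; simpa [mul_assoc] using ha _ (hb x hx)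
  have h6 : ∀ a ∈ s, ∀ b ∈ s, ⁅a, b⁆ ∈ M := fun a ha b hb => ⟨_, mul_mem (h1 a ha) (inv_mem (h1 b hb)), by
    have e1 := (h2 _ (h1 a ha) _ (h1 b hb)).eq
    have e2 := (h2 _ (h3 _ (mul_mem (h1 b hb) (inv_mem (h1 a ha)))) _ (inv_mem (h1 b hb))).eq
    calc ⁅a, b⁆ = a * n⁻¹ * (n * (b * n⁻¹ * (a * n⁻¹)⁻¹) * n⁻¹ * (b * n⁻¹)⁻¹) := by
          simp only [commutatorElement_def]
          rw [show b * n⁻¹ * (a * n⁻¹)⁻¹ = b * a⁻¹ by group]; group
      _ = _ := by rw [e2]; simp only [commutatorElement_def]; group⟩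
  suffices ∀ a ∈ closure s, ∀ b ∈ closure s, ⁅a, b⁆ ∈ M from
    (commutator_le (H₃ := M.subgroupOf _).2 fun a _ b _ => this _ a.2 _ b.2) hx
  intro a ha b hb
  induction ha, hb using closure_induction₂ with
  | mem a b ha hb => exact h6 a ha b hb
  | one_left => simp
  | one_right => simp
  | mul_left a b c ha _ _ k k' => rw [commutatorElement_mul_left_eq_conj_mul]; exact mul_mem (h5 _ ha _ k') k
  | mul_right a b c ha _ _ k k' =>
    rw [commutatorElement_mul_right_eq_mul_conj, mul_assoc, mul_assoc, ← mul_assoc a]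
    exact mul_mem k (h5 _ ha _ k')
  | inv_left a b ha _ k =>
    rw [commutatorElement_inv_left, ← commutatorElement_inv]; simpa using h5 _ (inv_mem ha) _ (inv_mem k)
  | inv_right a b _ hb k =>
    rw [commutatorElement_inv_right, ← commutatorElement_inv]; simpa using h5 _ (inv_mem hb) _ (inv_mem k)

variable {F : Type*} [Field F] {V : Type*} [AddCommGroup V] [Module F V]

section general

variable {τ : F →+* F} {π : FP F τ} {P : PQ π V} {S : Type*} [Group S] (σ : USys P S)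

theorem U_eq_one {e f : V} (h : P.Hyp e f) {g : P.Iso} (hg : g ∈ P.U f) {s t : F} (hs : s ≠ 0)
    (h1 : g • s • e = t • e) : g = 1 := by
  have := B_smul_smul g (s • e) f
  rw [h1, hg.1, B_smul_left, B_smul_left, h.pair, mul_one, mul_one] at this
  rw [this, act_smul] at h1
  exact h.swap.eq_one_of_mem_U hg (by rw [act_smul, smul_right_injective V hs h1])

namespace USys

theorem conj_E {e f e' f' x : V} {c s : F} (h : P.Hyp e f) (h' : P.Hyp e' f') (o : P.EOk e x c)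
    {g : S} (hs : s ≠ 0) (he : σ.θ g • e = s • e') :
    g * σ.E e x c * g⁻¹ = σ.E e' (τ s • σ.θ g • x) (s * τ s * c) :=
  σ.eq_of h' (σ.conj_mem hs he (σ.E_mem h _ _)) (σ.E_mem h' _ _) (by
    rw [map_mul, map_mul, map_inv, σ.θ_E h, σ.θ_E h', (conj_eich_smul o hs he).2])

theorem E_mul {e f x y : V} {c d : F} (h : P.Hyp e f) (o : P.EOk e x c) (o' : P.EOk e y d) :
    σ.E e x c * σ.E e y d = σ.E e (x + y) (c + d + P.B y x) :=
  σ.eq_of h (mul_mem (σ.E_mem h _ _) (σ.E_mem h _ _)) (σ.E_mem h _ _) (by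
    rw [map_mul, σ.θ_E h, σ.θ_E h, σ.θ_E h, o.eich_mul o'])

theorem E_inv {e f x : V} {c : F} (h : P.Hyp e f) (o : P.EOk e x c) :
    (σ.E e x c)⁻¹ = σ.E e (-x) (π.ε * τ c) :=
  σ.eq_of h (inv_mem (σ.E_mem h _ _)) (σ.E_mem h _ _) (by rw [map_inv, σ.θ_E h, σ.θ_E h, o.eich_inv])

theorem commute_ker {e f : V} (h : P.Hyp e f) {k y : S} (hk : σ.θ k = 1) (hy : y ∈ σ.Y e) :
    Commute k y :=
  mul_inv_eq_iff_eq_mul.1 (σ.eq_of h (σ.conj_mem one_ne_zero (by simp [hk]) hy) hy (by simp [hk]))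

/-- the lifted Weyl element -/
noncomputable def ws (e f x : V) (c : F) : S :=
  σ.E f ((π.ε * c⁻¹) • x) (τ c)⁻¹ * σ.E e x c * σ.E f ((τ c)⁻¹ • x) (τ c)⁻¹

variable {e f x : V} {c : F} (h : P.Hyp e f)
include h

theorem θ_ws (x : V) (c : F) : σ.θ (σ.ws e f x c) = Cl.ws P e f x c := by
  rw [ws, map_mul, map_mul, σ.θ_E h, σ.θ_E h.swap, σ.θ_E h.swap, Cl.ws]

theorem ws_eq (x : V) (c : F) : ∃ v ∈ σ.Y f, ∃ v' ∈ σ.Y f, σ.ws e f x c = v * σ.E e x c * v' :=
  ⟨_, σ.E_mem h.swap _ _, _, σ.E_mem h.swap _ _, rfl⟩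

theorem commute_ws {k : S} (hk : σ.θ k = 1) (x : V) (c : F) : Commute k (σ.ws e f x c) :=
  ((σ.commute_ker h.swap hk (σ.E_mem h.swap _ _)).mul_right (σ.commute_ker h hk (σ.E_mem h _ _))).mul_right
    (σ.commute_ker h.swap hk (σ.E_mem h.swap _ _))

variable (hx : x ∈ P.perp {e, f}) (hc : P.QEq x c) (h0 : c ≠ 0)
include hx hc h0

theorem ws_unique {v v' n : S} (hv : v ∈ σ.Y f) (hv' : v' ∈ σ.Y f) (hn : n = v * σ.E e x c * v')
    {s t : F} (h1 : σ.θ n • e = s • f) (h2 : σ.θ n • f = t • e) : n = σ.ws e f x c := by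
  obtain ⟨k1, k2, -⟩ := ws_act h hx hc h0
  rw [← σ.θ_ws h, ws] at k1 k2
  have hw := σ.E_mem h.swap ((π.ε * c⁻¹) • x) (τ c)⁻¹
  have hw' := σ.E_mem h.swap ((τ c)⁻¹ • x) (τ c)⁻¹
  have hs : s ≠ 0 := fun e => act_ne_zero _ h.left_ne_zero (by rw [h1, e, zero_smul])
  rw [hn, ws]
  rw [hn] at h1 h2
  generalize σ.E f ((π.ε * c⁻¹) • x) (τ c)⁻¹ = w at *
  generalize σ.E f ((τ c)⁻¹ • x) (τ c)⁻¹ = w' at *
  have p := fun {g} (hg : g ∈ σ.Y f) => σ.mem_U h.swap hg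
  simp only [map_mul, mul_smul, (p hv').1, (p hw').1] at h1 h2 k1 k2
  have e1 := U_eq_one h (p (mul_mem hv (inv_mem hw))) (neg_ne_zero.2 h0) (t := t) (by
    rw [← k2, map_mul, map_inv, mul_smul, inv_smul_smul, h2])
  rw [← eq_inv_smul_iff, act_smul, (inv_mem (p hv)).1, ← eq_inv_smul_iff, act_smul] at h1
  rw [← eq_inv_smul_iff, act_smul, (inv_mem (p hw)).1, ← eq_inv_smul_iff, act_smul] at k1
  have e2 := U_eq_one h (p (mul_mem (inv_mem hv') hw')) hs (t := -(π.ε * (τ c)⁻¹)) (by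
    rw [map_mul, map_inv, mul_smul, inv_smul_eq_iff, act_smul, act_smul, k1, h1, smul_comm])
  rw [σ.eq_of h.swap hv hw (by simpa [mul_inv_eq_one] using e1),
    σ.eq_of h.swap hv' hw' (by simpa [inv_mul_eq_one] using e2)]

theorem ws_e : σ.θ (σ.ws e f x c) • e = -(π.ε * (τ c)⁻¹) • f := by
  rw [σ.θ_ws h, (ws_act h hx hc h0).1]

theorem ws_f : σ.θ (σ.ws e f x c) • f = -c • e := by rw [σ.θ_ws h, (ws_act h hx hc h0).2.1]

theorem ws_W {y : V} (hy : y ∈ P.perp {e, f}) :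
    σ.θ (σ.ws e f x c) • y = y - (P.B y x / c) • x := by rw [σ.θ_ws h, (ws_act h hx hc h0).2.2 y hy]

theorem conj_ws {g : S} {t t' : F} (ht : t ≠ 0) (ht' : t' ≠ 0) (h1 : σ.θ g • e = t • e)
    (h2 : σ.θ g • f = t' • f) :
    g * σ.ws e f x c * g⁻¹ = σ.ws e f (τ t • σ.θ g • x) (t * τ t * c) := by
  have o : P.EOk e x c := ⟨h.left, (mem_perp_pair.1 hx).1, hc⟩
  have h3 : (σ.θ g)⁻¹ • e = t⁻¹ • e := by rw [inv_smul_eq_iff, act_smul, h1, inv_smul_smul₀ ht]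
  have h4 : (σ.θ g)⁻¹ • f = t'⁻¹ • f := by rw [inv_smul_eq_iff, act_smul, h2, inv_smul_smul₀ ht']
  obtain ⟨v, hv, v', hv', e1⟩ := σ.ws_eq h x c
  refine σ.ws_unique h (Submodule.smul_mem _ _ (Hyp.smul_mem_perp ht ht' h1 h2 hx))
    (conj_eich_smul o ht h1).1.val (by simp [ht, h0]) (σ.conj_mem ht' h2 hv)
    (σ.conj_mem ht' h2 hv') (by rw [← σ.conj_E h h o ht h1, e1]; group)
    (s := t⁻¹ * -(π.ε * (τ c)⁻¹) * t') (t := t'⁻¹ * -c * t) ?_ ?_
  all_goals simp only [map_mul, map_inv, mul_smul (α := P.Iso), h3, h4, act_smul,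
    σ.ws_e h hx hc h0, σ.ws_f h hx hc h0, h1, h2, smul_smul (M := F), mul_assoc]

theorem ws_inv : (σ.ws e f x c)⁻¹ = σ.ws e f (-x) (π.ε * τ c) := by
  have o : P.EOk e x c := ⟨h.left, (mem_perp_pair.1 hx).1, hc⟩
  have := π.eps_ne_zero
  obtain ⟨v, hv, v', hv', e1⟩ := σ.ws_eq h x c
  refine σ.ws_unique h (neg_mem hx) o.neg.val (by simp [*]) (inv_mem hv')
    (inv_mem hv) (by rw [← σ.E_inv h o, e1]; group) (s := (-c)⁻¹)
    (t := (-(π.ε * (τ c)⁻¹))⁻¹) ?_ ?_ <;> rw [map_inv, inv_smul_eq_iff, act_smul]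
  · rw [σ.ws_f h hx hc h0, inv_smul_smul₀ (neg_ne_zero.2 h0)]
  · rw [σ.ws_e h hx hc h0, inv_smul_smul₀ (by simp [*])]

theorem ws_self : σ.ws e f x c = σ.ws e f ((π.ε * τ c / c) • x) c := by
  obtain ⟨-, o, o2⟩ := eOk_ws h hx hc h0
  have k1 := σ.ws_e h hx hc h0
  have k2 := σ.ws_f h hx hc h0
  have h1 := (map_ne_zero τ).2 h0
  have h2 : -(π.ε * (τ c)⁻¹) ≠ 0 := by simp [π.eps_ne_zero, h0]
  have h3 := σ.conj_E h.swap h o2 (neg_ne_zero.2 h0) k2
  rw [act_smul, σ.ws_W h hx hc h0 hx, ← hc.trace,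
    show τ (-c) • (τ c)⁻¹ • (x - ((c + π.ε * τ c) / c) • x) = (π.ε * τ c / c) • x by
      rw [map_neg]; match_scalars; field_simp; ring,
    show -c * τ (-c) * (τ c)⁻¹ = c by rw [map_neg]; field_simp] at h3
  refine σ.ws_unique h (Submodule.smul_mem _ _ hx) ((hc.smul _).congr ?_) h0
    (σ.conj_mem h2 k1 (σ.E_mem h x c)) (σ.E_mem h.swap ((π.ε * c⁻¹) • x) (τ c)⁻¹) ?_ k1 k2
  · have := π.eps_sq
    simp only [map_div₀, map_mul, π.tau_tau, π.tau_eps]; field_simp; grind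
  · rw [← h3]
    conv_rhs => rw [mul_assoc, mul_assoc, mul_assoc, mul_assoc, mul_assoc]
    rw [ws]; group

theorem ws_add {l : F} (hl : l ∈ π.Λ) (h1 : l ≠ 0) (h2 : c + l ≠ 0) : σ.ws e f x (c + l) =
    σ.ws e f (-(π.ε * τ c / c) • x) (π.ε * τ c * (c + l) / l) * σ.ws e f x c * σ.ws e f 0 l := by
  obtain ⟨-, o, o2⟩ := eOk_ws h hx hc h0
  have o' := EOk.lam h.left hl
  obtain ⟨o3, -, -⟩ := eOk_ws h (zero_mem _) o'.val h1
  have k1 := σ.ws_e h hx hc h0
  have k2 := σ.ws_f h hx hc h0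
  have k3 := σ.ws_e h (zero_mem _) o'.val h1
  have k4 := σ.ws_f h (zero_mem _) o'.val h1
  have h3 := (map_ne_zero τ).2 h0
  have h4 := σ.conj_E h.swap h (o3.add o2).neg (neg_ne_zero.2 h0) k2
  have h5 := (conj_eich_smul (o3.add o2).neg (neg_ne_zero.2 h0) k2).1.val
  have := π.eps_sq
  have := π.eps_ne_zero
  rw [smul_zero, zero_add, smul_neg, act_smul, σ.ws_W h hx hc h0 hx, ← hc.trace,
    show τ (-c) • -((τ c)⁻¹ • (x - ((c + π.ε * τ c) / c) • x)) = -(π.ε * τ c / c) • x by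
      rw [map_neg]; match_scalars; field_simp; ring, map_zero,
    show -c * τ (-c) * (π.ε * τ ((τ l)⁻¹ + (τ c)⁻¹ + 0)) = π.ε * τ c * (c + l) / l by
      simp only [map_neg, map_add, map_inv₀, π.tau_tau, map_zero]; field_simp; ring] at h4 h5
  have h6 : π.ε * τ c * (c + l) / l ≠ 0 := by simp [*]
  have h7 := Submodule.smul_mem _ (-(π.ε * τ c / c)) hx
  have k5 := σ.ws_e h h7 h5 h6
  have k6 := σ.ws_f h h7 h5 h6
  have k7 : σ.θ (σ.ws e f x c * σ.ws e f 0 l)⁻¹ • f = (l * π.ε * (τ c)⁻¹)⁻¹ • f := by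
    rw [map_inv, inv_smul_eq_iff, act_smul, map_mul, mul_smul, k4, act_smul, k1, smul_smul, smul_smul]
    match_scalars; field_simp
  have e1 := σ.E_mul h o o'
  rw [add_zero, map_zero, LinearMap.zero_apply, add_zero] at e1
  have e2 := σ.E_mul h.swap o3 o2
  rw [← σ.E_inv h.swap (by simpa using o3.add o2)] at h4
  simp only [smul_zero, zero_add, map_zero] at e2
  obtain ⟨v, hv, v', hv', e3⟩ := σ.ws_eq h (-(π.ε * τ c / c) • x) (π.ε * τ c * (c + l) / l)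
  refine (σ.ws_unique h hx (o.add_lam hl).val h2
    (mul_mem hv (σ.E_mem h.swap ((π.ε * c⁻¹) • x) (τ c)⁻¹))
    (mul_mem (σ.E_mem h.swap ((τ l)⁻¹ • 0) (τ l)⁻¹) (σ.conj_mem (by simp [*]) k7 hv'))
    ?_ (by simp only [map_mul, mul_smul (α := P.Iso), act_smul, k3, k2, k5, smul_smul (M := F)]; rfl)
    (by simp only [map_mul, mul_smul (α := P.Iso), act_smul, k4, k1, k6, smul_smul (M := F)]; rfl)).symm
  rw [e3, ← h4, ← e1, ← e2]
  simp only [ws, smul_zero]; group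

end USys

end general

variable [Fintype F] {q : ℕ} {hF : Fintype.card F = q ^ 2} {P : PQ (uFP hF) V}
variable {S : Type*} [Group S] (σ : USys P S) {e f y : V}

local notation "τ" => frobq hF

variable (P e f y) in
/-- the torus of the rank one group -/
def Tr : Subgroup P.Iso where
  carrier := {g | ∃ t, t ≠ 0 ∧ g • e = t • e ∧ g • f = (τ t)⁻¹ • f ∧ g • y = (τ t / t) • y ∧
    ∀ z ∈ P.perp {e, f}, P.B z y = 0 → g • z = z}
  one_mem' := ⟨1, by simp⟩
  mul_mem' := by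
    rintro a b ⟨t, h1, h2, h3, h4, h5⟩ ⟨t', k1, k2, k3, k4, k5⟩
    refine ⟨t' * t, mul_ne_zero k1 h1, ?_, ?_, ?_, fun z hz hz' => ?_⟩ <;>
      simp only [mul_smul (α := P.Iso), act_smul, smul_smul (M := F), map_mul, *]
    · rw [mul_inv]
    · rw [mul_div_mul_comm]
  inv_mem' := by
    rintro a ⟨t, h1, h2, h3, h4, h5⟩
    have := (map_ne_zero τ).2 h1
    refine ⟨t⁻¹, inv_ne_zero h1, ?_, ?_, ?_, fun z hz hz' => ?_⟩ <;>
      simp only [inv_smul_eq_iff, act_smul, smul_smul (M := F), map_inv₀, *] <;>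
      match_scalars <;> field_simp

variable (e f y) in
/-- the Weyl elements -/
def WS : Set S := {g | ∃ a c, Val τ (P.B y y) a c ∧ g = σ.ws e f (a • y) c}

variable (e f y) in
/-- the lifted torus -/
def HS3 : Subgroup S := closure {g | ∃ a ∈ WS σ e f y, ∃ b ∈ WS σ e f y, g = a * b}

omit σ in
theorem Val.qeq {a c : F} (k : Val τ (P.B y y) a c) : P.QEq (a • y) c :=
  u_QEq_iff.2 (by rw [k.2, B_smul_left, B_smul_right, mul_assoc])

variable (h : P.Hyp e f) (hy : y ∈ P.perp {e, f})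
include h hy

theorem ws3_act {a c : F} (k : Val τ (P.B y y) a c) :
    σ.θ (σ.ws e f (a • y) c) • e = -(τ c)⁻¹ • f ∧ σ.θ (σ.ws e f (a • y) c) • f = -c • e ∧
    σ.θ (σ.ws e f (a • y) c) • y = -(τ c / c) • y ∧
    ∀ z ∈ P.perp {e, f}, P.B z y = 0 → σ.θ (σ.ws e f (a • y) c) • z = z := by
  have hx := Submodule.smul_mem _ a hy
  refine ⟨by simpa using σ.ws_e h hx k.qeq k.1, σ.ws_f h hx k.qeq k.1, ?_, fun z hz hz' => ?_⟩
  · have := k.1
    rw [σ.ws_W h hx k.qeq k.1 hy, B_smul_right]; match_scalars; field_simp; linear_combination k.2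
  · rw [σ.ws_W h hx k.qeq k.1 hz]; simp [hz']

theorem ws3_inv {a c : F} (k : Val τ (P.B y y) a c) : Val τ (P.B y y) (-a) (τ c) ∧
    (σ.ws e f (a • y) c)⁻¹ = σ.ws e f ((-a) • y) (τ c) :=
  ⟨⟨(map_ne_zero τ).2 k.1, by rw [frobq_frobq, add_comm, k.2]; simp⟩, by
    simpa using σ.ws_inv h (Submodule.smul_mem _ a hy) k.qeq k.1⟩

theorem WS_inv : ∀ a ∈ WS σ e f y, a⁻¹ ∈ WS σ e f y := by
  rintro _ ⟨a, c, k, rfl⟩
  exact ⟨_, _, ws3_inv σ h hy k⟩

theorem ws3_mul {a c a' c' : F} (k : Val τ (P.B y y) a c) (k' : Val τ (P.B y y) a' c') :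
    σ.θ (σ.ws e f (a • y) c * σ.ws e f (a' • y) c') • e = (c / τ c') • e ∧
    σ.θ (σ.ws e f (a • y) c * σ.ws e f (a' • y) c') ∈ Tr P e f y := by
  obtain ⟨h1, h2, h3, h4⟩ := ws3_act σ h hy k
  obtain ⟨k1, k2, k3, k4⟩ := ws3_act σ h hy k'
  have := k.1
  have := k'.1
  have := (map_ne_zero τ).2 k.1
  have := (map_ne_zero τ).2 k'.1
  refine (fun h => ⟨h, c / τ c', by simp [*], h, ?_, ?_, fun z hz hz' => ?_⟩) ?_ <;>
    simp only [map_mul, mul_smul (α := P.Iso), act_smul, smul_smul (M := F), map_div₀, frobq_frobq,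
      *] <;> match_scalars <;> field_simp

theorem HS3_le : HS3 σ e f y ≤ (Tr P e f y).comap σ.θ := (closure_le _).2 (by
  rintro _ ⟨_, ⟨a, c, k, rfl⟩, _, ⟨a', c', k', rfl⟩, rfl⟩
  exact (ws3_mul σ h hy k k').2)

variable (h0 : P.B y y ≠ 0)
include h0

omit σ in
theorem Tr_eq_one {g : P.Iso} (hg : g ∈ Tr P e f y) (h1 : g • e = e) : g = 1 := by
  obtain ⟨t, -, h2, h3, h4, h5⟩ := hg
  obtain rfl : t = 1 := smul_left_injective F h.left_ne_zero (h2.symm.trans (h1.trans (one_smul F e).symm))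
  refine h.iso_ext (by simpa) (by simpa using h3) fun w hw => ?_
  have := h5 (w - (P.B w y / P.B y y) • y) (sub_mem hw (Submodule.smul_mem _ _ hy)) (by simp [h0])
  simpa [smul_sub, act_smul, h4] using this

theorem HS3_comm : ∀ a ∈ HS3 σ e f y, ∀ b ∈ HS3 σ e f y, Commute a b := fun a ha b hb => by
  let χ : HS3 σ e f y →* F :=
    { toFun := fun g => P.B (σ.θ g • e) f
      map_one' := by simp [h.pair]
      map_mul' := fun g g' => by
        obtain ⟨t, -, h1, -⟩ := HS3_le σ h hy g'.2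
        simp [mul_smul, h1, act_smul, h.pair, mul_comm] }
  refine congrArg Subtype.val ((χ.toHomUnits.isMulCommutative_of_isCyclic_of_ker_le_center
    fun g hg => mem_center_iff.2 fun ⟨x, hx⟩ => Subtype.ext ?_).1.1 ⟨a, ha⟩ ⟨b, hb⟩)
  obtain ⟨t, -, h1, -⟩ := HS3_le σ h hy g.2
  have h2 : P.B (σ.θ g • e) f = 1 := congrArg Units.val hg
  rw [h1, B_smul_left, h.pair, mul_one] at h2
  have h3 := Tr_eq_one h hy h0 (HS3_le σ h hy g.2) (by rw [h1, h2, one_smul])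
  refine mem_centralizer_singleton_iff.1 ((closure_le (centralizer {g.1})).2 ?_ hx)
  rintro _ ⟨_, ⟨a, c, k, rfl⟩, _, ⟨a', c', k', rfl⟩, rfl⟩
  exact mem_centralizer_singleton_iff.2 ((σ.commute_ws h h3 _ _).mul_right (σ.commute_ws h h3 _ _)).symm

theorem HS3_ker : HS3 σ e f y ⊓ σ.θ.ker = ⊥ := by
  classical
  obtain ⟨l, hl, hl0⟩ := u_exists_lam hF
  have hl' : τ l = -l := by simpa using tau_lam hl
  have v0 : ∀ l, τ l = -l → l ≠ 0 → Val τ (P.B y y) 0 l := fun l h1 h2 => ⟨h2, by simp [h1]⟩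
  let m : ∀ {a c}, Val τ (P.B y y) a c → closure (WS σ e f y) := fun {a c} k =>
    ⟨_, subset_closure ⟨a, c, k, rfl⟩⟩
  let φ : F → F → Abelianization (closure (WS σ e f y)) := fun a c =>
    if k : Val τ (P.B y y) a c then Abelianization.of (m k) else 1
  have hφ : ∀ {a c} (k : Val τ (P.B y y) a c), φ a c = Abelianization.of (m k) := fun k => dif_pos k
  have hv : ∀ c, c ≠ 0 → ∃ a, Val τ (P.B y y) a c := fun c hc => by
    obtain ⟨a, ha⟩ := exists_norm_eq hF ((c + τ c) / P.B y y)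
      (by rw [map_div₀, map_add, frobq_frobq, u_fix_B_self, add_comm])
    exact ⟨a, hc, by rw [ha, div_mul_cancel₀ _ h0]⟩
  have cj' : ∀ {g}, g ∈ HS3 σ e f y → ∀ {t}, σ.θ g • e = t • e → ∀ {a c}, Val τ (P.B y y) a c →
      g * σ.ws e f (a • y) c * g⁻¹ = σ.ws e f ((τ t ^ 2 / t * a) • y) (t * τ t * c) :=
    fun {g} hg t ht a c k => by
      obtain ⟨t', h1, h2, h3, h4, -⟩ := HS3_le σ h hy hg
      obtain rfl := smul_left_injective F h.left_ne_zero (ht.symm.trans h2)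
      rw [σ.conj_ws h (Submodule.smul_mem _ a hy) k.qeq k.1 h1 (by simp [h1]) h2 h3, act_smul, h4]
      congr 1; match_scalars; ring
  have U : U3Fun τ (P.B y y) l φ := by
    refine ⟨frobq_frobq hF, exists_norm_eq hF, h0, u_fix_B_self y, hl0, hl', fun t ht a c k => ?_,
      fun a c k => ?_, fun a c k l h1 h2 h3 => ?_, fun a c k => ?_⟩
    · obtain ⟨b, hb⟩ := hv (t * τ l) (by simp [*])
      have h1 := (map_ne_zero τ).2 ht
      have k' : Val τ (P.B y y) (τ t ^ 2 / t * a) (t * τ t * c) := ⟨by simp [ht, k.1], by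
        simp only [map_mul, map_div₀, map_pow, frobq_frobq]; field_simp; linear_combination k.2⟩
      have := cj' (subset_closure ⟨_, ⟨_, _, hb, rfl⟩, _, ⟨_, _, v0 l hl' hl0, rfl⟩, rfl⟩)
        ((ws3_mul σ h hy hb (v0 l hl' hl0)).1.trans (by rw [mul_div_cancel_right₀ _ (by simp [hl0])])) k
      rw [hφ k, hφ k', show m k' = m hb * m (v0 l hl' hl0) * m k * (m hb * m (v0 l hl' hl0))⁻¹ from
        Subtype.ext this.symm, map_mul, map_mul, map_inv, mul_inv_cancel_comm]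
    · have k' := k.smul (s := τ c / c) (by
        have := k.1; have := (map_ne_zero τ).2 k.1; rw [map_div₀, frobq_frobq]; field_simp)
      rw [hφ k, hφ k']; congr 1
      exact Subtype.ext (by simpa [smul_smul, m] using (σ.ws_self h (Submodule.smul_mem _ a hy) k.qeq k.1).symm)
    · have := k.1
      have := (map_ne_zero τ).2 k.1
      have k1 : Val τ (P.B y y) a (c + l) := ⟨h3, by rw [map_add, h1, ← k.2]; ring⟩
      have k2 : Val τ (P.B y y) (-(τ c / c) * a) (τ c * (c + l) / l) := ⟨by simp [*], by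
        simp only [map_div₀, map_mul, map_add, map_neg, frobq_frobq, h1]
        field_simp; linear_combination l * k.2⟩
      rw [hφ k, hφ k1, hφ k2, hφ (v0 l h1 h2), ← map_mul, ← map_mul]; congr 1
      exact Subtype.ext (by
        simpa [smul_smul, m] using σ.ws_add h (Submodule.smul_mem _ a hy) k.qeq k.1
          ((mem_uFP_lam hF l).2 (by simp [h1])) h2 h3)
    · rw [hφ k, hφ (ws3_inv σ h hy k).1, ← map_inv]; congr 1
      exact Subtype.ext (ws3_inv σ h hy k).2.symm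
  obtain ⟨ψ, p1, ω, p2⟩ := U.exists_hom
  have p0 : ψ 1 = 1 := by simpa using p1 1 1 one_ne_zero one_ne_zero
  have p3 : ∀ g ∈ HS3 σ e f y, ∃ (k : g ∈ closure (WS σ e f y)) (t : F), t ≠ 0 ∧
      σ.θ g • e = t • e ∧ Abelianization.of ⟨g, k⟩ = ψ t := fun g hg => by
    induction hg using closure_induction with
    | one => exact ⟨one_mem _, 1, one_ne_zero, by simp, (map_one _).trans p0.symm⟩
    | mem g hg =>
      obtain ⟨_, ⟨a, c, k, rfl⟩, _, ⟨a', c', k', rfl⟩, rfl⟩ := hg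
      have h1 := (map_ne_zero τ).2 k'.1
      refine ⟨(m k * m k').2, _, div_ne_zero k.1 h1, (ws3_mul σ h hy k k').1, ?_⟩
      have := p1 _ _ (div_ne_zero k.1 h1) h1
      rw [div_mul_cancel₀ _ h1] at this
      change Abelianization.of (m k * m k') = _
      rw [map_mul, ← hφ k, ← hφ k', ← inv_inv (φ a' c'), ← U.r4 _ _ k', p2 _ _ k,
        p2 _ _ (ws3_inv σ h hy k').1, this]
      simp
    | mul a b _ _ ha hb =>
      obtain ⟨k, t, h1, h2, h3⟩ := ha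
      obtain ⟨k', t', h4, h5, h6⟩ := hb
      exact ⟨mul_mem k k', t' * t, mul_ne_zero h4 h1, by
        rw [map_mul, mul_smul, h5, act_smul, h2, smul_smul], by
        rw [p1 _ _ h4 h1, ← h3, ← h6, mul_comm, ← map_mul]; rfl⟩
    | inv a _ ha =>
      obtain ⟨k, t, h1, h2, h3⟩ := ha
      refine ⟨inv_mem k, t⁻¹, inv_ne_zero h1, by
        rw [map_inv, inv_smul_eq_iff, act_smul, h2, inv_smul_smul₀ h1], ?_⟩
      rw [eq_inv_of_mul_eq_one_left ((p1 _ _ (inv_ne_zero h1) h1).symm.trans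
        (by rw [inv_mul_cancel₀ h1, p0])), ← h3, ← map_inv]; rfl
  refine eq_bot_iff.2 fun g ⟨hg, h1⟩ => ?_
  obtain ⟨k, t, -, h2, h3⟩ := p3 g hg
  rw [show σ.θ g = 1 from h1, one_smul] at h2
  rw [← smul_left_injective F h.left_ne_zero ((one_smul F e).trans h2), p0] at h3
  have n0 : σ.ws e f ((0 : F) • y) l ∈ WS σ e f y := ⟨_, _, v0 l hl' hl0, rfl⟩
  obtain ⟨u, hu, e1⟩ := comm_closure_le (H := HS3 σ e f y) (x := ⟨g, k⟩)
    (fun a ha => subset_closure ⟨a, ha, _, WS_inv σ h hy _ n0, rfl⟩) (HS3_comm σ h hy h0)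
    (fun a ha => cj_le_iff.1 (by
      rw [HS3, cj, MonoidHom.map_closure, closure_le]
      rintro _ ⟨_, ⟨a, ha, b, hb, rfl⟩, rfl⟩
      simpa [mul_assoc] using mul_mem (subset_closure ⟨_, n0, a, ha, rfl⟩ : _ ∈ HS3 σ e f y)
        (subset_closure ⟨b, hb, _, WS_inv σ h hy _ n0, rfl⟩)) a ha) (WS_inv σ h hy)
    ((QuotientGroup.eq_one_iff _).1 h3)
  obtain ⟨t, h4, h5, -⟩ := HS3_le σ h hy hu
  have e2 := cj' hu h5 (v0 l hl' hl0)
  dsimp only at e1
  rw [commutatorElement_def, e2, mul_zero, (ws3_inv σ h hy (v0 l hl' hl0)).2] at e1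
  have v1 := v0 (t * τ t * l) (by simp [hl', frobq_frobq, mul_comm]) (by simp [*])
  have := (ws3_mul σ h hy v1 (ws3_inv σ h hy (v0 l hl' hl0)).1).1
  rw [← e1, show σ.θ g = 1 from h1, one_smul, frobq_frobq, mul_div_cancel_right₀ _ hl0] at this
  rw [e1, ← smul_left_injective F h.left_ne_zero ((one_smul F e).trans this), one_mul,
    ← (ws3_inv σ h hy (v0 l hl' hl0)).2, mul_inv_cancel]
  exact one_mem _

end Cfsg.Agent.Cl
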